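import Mathlib
import Cfsg.Agent.H21.BRMDefs

set_option autoImplicit false

/-!
# Piece BRM-ARITH of S0996 / S4700 (helper35, for helper21)

Three arithmetic lemmas on the degrees of the principal block under the hypothesis `ND p n`.
-/

namespace Cfsg.Agent.H35.BRM

open Cfsg Cfsg.Agent.H21.BR

theorem nd_basic (p e t : ℕ) (hp : p.Prime) (het : e * t = p - 1) :
    1 ≤ e ∧ 1 ≤ t ∧ e < p ∧ e * t + 1 = p := by
  have hp2 := hp.two_le
  have h1 : 1 ≤ e * t := by omega
  have he : 1 ≤ e := by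
    rcases Nat.eq_zero_or_pos e with rfl | h
    · simp at h1
    · exact h
  have ht : 1 ≤ t := by
    rcases Nat.eq_zero_or_pos t with rfl | h
    · simp at h1
    · exact h
  have h2 : e ≤ e * t := Nat.le_mul_of_pos_right e ht
  exact ⟨he, ht, by omega, by omega⟩

theorem nd_eq_of_modEq {p a b : ℕ} (h : (a : ℤ) ≡ (b : ℤ) [ZMOD p]) (ha : a < p) (hb : b < p) :
    a = b := by
  have h1 : (a : ℤ) % p = (b : ℤ) % p := h
  rw [Int.emod_eq_of_lt (by positivity) (by exact_mod_cast ha),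
    Int.emod_eq_of_lt (by positivity) (by exact_mod_cast hb)] at h1
  exact_mod_cast h1

theorem nd_mod_one {p x : ℕ} (hp : 2 ≤ p) (h : (x : ℤ) ≡ 1 [ZMOD p]) : x % p = 1 := by
  have h1 : (x : ℤ) % p = 1 % p := h
  have h2 : (1 : ℤ) % (p : ℤ) = 1 := Int.emod_eq_of_lt (by norm_num) (by exact_mod_cast hp)
  rw [h2] at h1
  exact_mod_cast h1

theorem nd_modEq_e (e n p : ℕ) : ((e : ℤ) * (1 + n * p)) ≡ (e : ℤ) [ZMOD p] := by
  have h : (e : ℤ) * (1 + n * p) = e + p * (e * n) := by ring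
  rw [h]
  exact Int.add_mul_emod_self_left _ _ _

theorem nd_modEq_one_sub (p : ℕ) : (1 - (p : ℤ)) ≡ 1 [ZMOD p] := by
  have h : (1 - (p : ℤ)) = 1 + p * (-1) := by ring
  rw [h]
  exact Int.add_mul_emod_self_left _ _ _

theorem nd_big (p n : ℕ) (hp3 : 3 ≤ p) (hn : 1 ≤ n) : p < (p - 1) * (1 + n * p) := by
  obtain ⟨q, rfl⟩ : ∃ q, p = q + 3 := ⟨p - 3, by omega⟩
  obtain ⟨m, rfl⟩ : ∃ m, n = m + 1 := ⟨n - 1, by omega⟩
  have h : q + 3 - 1 = q + 2 := by omega
  rw [h]
  nlinarith [Nat.zero_le (m * q), Nat.zero_le (q * q), Nat.zero_le (m * q * q), Nat.zero_le m,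
    Nat.zero_le q]

theorem nd_plus (p e t n f : ℕ) (hp : p.Prime) (het : e * t = p - 1) (hND : ND p n)
    (hf2 : 2 ≤ f) (hdvd : f ∣ e * (1 + n * p)) (hmod : (f : ℤ) ≡ 1 [ZMOD p]) :
    f = 1 + n * p := by
  obtain ⟨he1, ht1, hep, hetp⟩ := nd_basic p e t hp het
  have hp2 := hp.two_le
  have hfp : f % p = 1 := nd_mod_one hp2 hmod
  have hdvd' : f ∣ (p - 1) * (1 + n * p) := by
    rw [← het]
    exact Dvd.dvd.trans hdvd ⟨t, by ring⟩
  have hfge : 1 + n * p ≤ f := by
    rcases hND f hdvd' hfp with h | h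
    · omega
    · exact h
  obtain ⟨g, hg⟩ := hdvd
  have hg1 : 1 ≤ g := by
    rcases Nat.eq_zero_or_pos g with rfl | h
    · have h0 : 0 < e * (1 + n * p) := Nat.mul_pos he1 (by omega)
      rw [hg] at h0
      simp at h0
    · exact h
  have hge : g ≤ e := by
    by_contra hcon
    have h1 : e + 1 ≤ g := by omega
    have h2 : (1 + n * p) * (e + 1) ≤ f * g := Nat.mul_le_mul hfge h1
    nlinarith
  have hgZ : (f : ℤ) * g = e * (1 + n * p) := by exact_mod_cast hg.symm
  have hgmod : (g : ℤ) ≡ (e : ℤ) [ZMOD p] := by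
    have h1 : (f : ℤ) * g ≡ 1 * g [ZMOD p] := hmod.mul_right g
    rw [one_mul, hgZ] at h1
    exact h1.symm.trans (nd_modEq_e e n p)
  have hgeq : g = e := nd_eq_of_modEq hgmod (by omega) hep
  subst hgeq
  have h3 : g * (1 + n * p) = g * f := by rw [hg, mul_comm]
  exact (Nat.eq_of_mul_eq_mul_left hg1 h3).symm

theorem nd_minus (p e t n f : ℕ) (hp : p.Prime) (hp2 : p ≠ 2) (het : e * t = p - 1)
    (hn : 1 ≤ n) (hND : ND p n) (hdvd : f ∣ e * (1 + n * p)) (hmod : (f : ℤ) ≡ -1 [ZMOD p])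
    (hsq : f ^ 2 ≤ p * (e * (1 + n * p))) : f = p - 1 := by
  obtain ⟨he1, ht1, hep, hetp⟩ := nd_basic p e t hp het
  have hp3 : 3 ≤ p := by
    have := hp.two_le
    omega
  obtain ⟨g, hg⟩ := hdvd
  have hD0 : 0 < e * (1 + n * p) := Nat.mul_pos he1 (by omega)
  have hf1 : 1 ≤ f := by
    rcases Nat.eq_zero_or_pos f with rfl | h
    · rw [hg] at hD0
      simp at hD0
    · exact h
  have hg1 : 1 ≤ g := by
    rcases Nat.eq_zero_or_pos g with rfl | h
    · rw [hg] at hD0
      simp at hD0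
    · exact h
  have hprod : f * (t * g) = (p - 1) * (1 + n * p) := by
    rw [← het]
    calc f * (t * g) = t * (f * g) := by ring
      _ = t * (e * (1 + n * p)) := by rw [hg]
      _ = e * t * (1 + n * p) := by ring
  have hd_dvd : t * g ∣ (p - 1) * (1 + n * p) := ⟨f, by rw [← hprod]; ring⟩
  have hgZ : (f : ℤ) * g = e * (1 + n * p) := by exact_mod_cast hg.symm
  have hetZ : (e : ℤ) * t = p - 1 := by
    have : ((e * t + 1 : ℕ) : ℤ) = (p : ℤ) := by exact_mod_cast hetp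
    push_cast at this
    linarith
  have hd_mod : (t * g) % p = 1 := by
    apply nd_mod_one hp.two_le
    have h1 : (f : ℤ) * g ≡ -1 * g [ZMOD p] := hmod.mul_right g
    rw [hgZ] at h1
    have h4 : (-1 * (g : ℤ)) ≡ (e : ℤ) [ZMOD p] := h1.symm.trans (nd_modEq_e e n p)
    have h5 := h4.mul_left (-(t : ℤ))
    have e1 : -(t : ℤ) * (-1 * (g : ℤ)) = ((t * g : ℕ) : ℤ) := by
      push_cast
      ring
    have e2 : -(t : ℤ) * (e : ℤ) = 1 - (p : ℤ) := by linarith
    rw [e1, e2] at h5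
    exact h5.trans (nd_modEq_one_sub p)
  rcases hND (t * g) hd_dvd hd_mod with h | h
  · exfalso
    have ht : t = 1 := Nat.eq_one_of_mul_eq_one_right h
    have hg' : g = 1 := Nat.eq_one_of_mul_eq_one_left h
    subst ht hg'
    rw [mul_one, mul_one] at hprod
    rw [mul_one] at hg
    have h6 : f ≤ p := by
      rw [hg, pow_two] at hsq
      exact Nat.le_of_mul_le_mul_right hsq hf1
    have h7 := nd_big p n hp3 hn
    omega
  · have hfle : f ≤ p - 1 := by
      by_contra hcon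
      have h1 : p ≤ f := by omega
      have h2 : p * (1 + n * p) ≤ f * (t * g) := Nat.mul_le_mul h1 h
      have h4 : (p - 1) * (1 + n * p) < p * (1 + n * p) :=
        Nat.mul_lt_mul_of_pos_right (by omega) (by omega)
      rw [hprod] at h2
      exact absurd h2 (not_le.2 h4)
    have h5 : (f : ℤ) ≡ ((p - 1 : ℕ) : ℤ) [ZMOD p] := by
      rw [Nat.cast_sub (by omega), Nat.cast_one]
      refine hmod.trans ?_
      have h : ((p : ℤ) - 1) = -1 + p * 1 := by ring
      rw [h]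
      exact (Int.add_mul_emod_self_left _ _ _).symm
    exact nd_eq_of_modEq h5 (by omega) (by omega)

theorem nd_exc (p e t n y : ℕ) (ε : ℤ) (hp : p.Prime) (hp2 : p ≠ 2) (het : e * t = p - 1)
    (hn : 1 ≤ n) (hND : ND p n) (hε : ε = 1 ∨ ε = -1) (hy2 : 2 ≤ y)
    (hdvd : y ∣ e * (1 + n * p)) (hmod : (y : ℤ) ≡ ε * (e : ℤ) [ZMOD p])
    (hsq : t * y ^ 2 ≤ p * (e * (1 + n * p))) :
    (ε = 1 ∧ y = e) ∨ (ε = -1 ∧ t * y = 1 + n * p) := by
  obtain ⟨he1, ht1, hep, hetp⟩ := nd_basic p e t hp het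
  have hp3 : 3 ≤ p := by
    have := hp.two_le
    omega
  have hpZ : Prime (p : ℤ) := Nat.prime_iff_prime_int.1 hp
  have hpe : ¬ (p : ℤ) ∣ (e : ℤ) := by
    intro h
    have h1 : p ∣ e := Int.natCast_dvd_natCast.1 h
    have h2 := Nat.le_of_dvd (by omega) h1
    omega
  obtain ⟨g, hg⟩ := hdvd
  have hD0 : 0 < e * (1 + n * p) := Nat.mul_pos he1 (by omega)
  have hg1 : 1 ≤ g := by
    rcases Nat.eq_zero_or_pos g with rfl | h
    · rw [hg] at hD0
      simp at hD0
    · exact h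
  have hgZ : (y : ℤ) * g = e * (1 + n * p) := by exact_mod_cast hg.symm
  have hetZ : (e : ℤ) * t = p - 1 := by
    have : ((e * t + 1 : ℕ) : ℤ) = (p : ℤ) := by exact_mod_cast hetp
    push_cast at this
    linarith
  have hprod : t * y * g = (p - 1) * (1 + n * p) := by
    rw [← het]
    calc t * y * g = t * (y * g) := by ring
      _ = t * (e * (1 + n * p)) := by rw [hg]
      _ = e * t * (1 + n * p) := by ring
  rcases hε with rfl | rfl
  · left
    refine ⟨rfl, ?_⟩
    rw [one_mul] at hmod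
    have h5 : (e : ℤ) * g ≡ (e : ℤ) [ZMOD p] := by
      have h1 : (y : ℤ) * g ≡ e * g [ZMOD p] := hmod.mul_right g
      rw [hgZ] at h1
      exact h1.symm.trans (nd_modEq_e e n p)
    have h6 : (p : ℤ) ∣ (e : ℤ) * ((g : ℤ) - 1) := by
      have h := Int.modEq_iff_dvd.1 h5.symm
      have e1 : (e : ℤ) * ((g : ℤ) - 1) = e * g - e := by ring
      rw [e1]
      exact h
    have hg_mod : g % p = 1 := by
      apply nd_mod_one hp.two_le
      rcases hpZ.dvd_or_dvd h6 with h | h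
      · exact absurd h hpe
      · exact (Int.modEq_iff_dvd.2 h).symm
    have hg_dvd : g ∣ (p - 1) * (1 + n * p) := ⟨t * y, by rw [← hprod]; ring⟩
    rcases hND g hg_dvd hg_mod with h | h
    · exfalso
      subst h
      rw [mul_one] at hg hprod
      have h7 : t * y ≤ p := by
        rw [hg, pow_two, ← mul_assoc] at hsq
        exact Nat.le_of_mul_le_mul_right hsq (by omega)
      have h8 := nd_big p n hp3 hn
      omega
    · have hyle : y ≤ e := by
        by_contra hcon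
        have h1 : e + 1 ≤ y := by omega
        have h2 : (e + 1) * (1 + n * p) ≤ y * g := Nat.mul_le_mul h1 h
        nlinarith
      exact nd_eq_of_modEq hmod (by omega) hep
  · right
    refine ⟨rfl, ?_⟩
    have hd_mod : (t * y) % p = 1 := by
      apply nd_mod_one hp.two_le
      have h5 := hmod.mul_left (t : ℤ)
      have e2 : (t : ℤ) * (-1 * (e : ℤ)) = 1 - (p : ℤ) := by linarith
      rw [e2] at h5
      have e1 : ((t * y : ℕ) : ℤ) = (t : ℤ) * y := by push_cast; ring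
      rw [e1]
      exact h5.trans (nd_modEq_one_sub p)
    have hd_dvd : t * y ∣ (p - 1) * (1 + n * p) := ⟨g, hprod.symm⟩
    rcases hND (t * y) hd_dvd hd_mod with h | h
    · exfalso
      have h1 : 2 ≤ t * y := by
        calc 2 ≤ y := hy2
          _ = 1 * y := (one_mul y).symm
          _ ≤ t * y := Nat.mul_le_mul_right y ht1
      omega
    · have hgle : g ≤ p - 1 := by
        by_contra hcon
        have h1 : p ≤ g := by omega
        have h2 : (1 + n * p) * p ≤ t * y * g := Nat.mul_le_mul h h1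
        have h4 : (p - 1) * (1 + n * p) < (1 + n * p) * p := by
          rw [mul_comm (1 + n * p) p]
          exact Nat.mul_lt_mul_of_pos_right (by omega) (by omega)
        rw [hprod] at h2
        exact absurd h2 (not_le.2 h4)
      have h5 : (-1 * (e : ℤ)) * g ≡ (e : ℤ) [ZMOD p] := by
        have h1 : (y : ℤ) * g ≡ -1 * e * g [ZMOD p] := hmod.mul_right g
        rw [hgZ] at h1
        exact h1.symm.trans (nd_modEq_e e n p)
      have h6 : (p : ℤ) ∣ (e : ℤ) * ((g : ℤ) + 1) := by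
        have h := Int.modEq_iff_dvd.1 h5
        have e1 : (e : ℤ) * ((g : ℤ) + 1) = e - -1 * e * g := by ring
        rw [e1]
        exact h
      have h7 : p ∣ g + 1 := by
        rcases hpZ.dvd_or_dvd h6 with h | h
        · exact absurd h hpe
        · exact Int.natCast_dvd_natCast.1 (by exact_mod_cast h)
      have h8 : p ≤ g + 1 := Nat.le_of_dvd (by omega) h7
      have hgp : g = p - 1 := by omega
      rw [hgp] at hprod
      have h9 : (p - 1) * (t * y) = (p - 1) * (1 + n * p) := by rw [← hprod]; ring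
      exact Nat.eq_of_mul_eq_mul_left (by omega) h9

end Cfsg.Agent.H35.BRM

namespace Cfsg.Agent.H35.BRMArithCheck

open Cfsg Cfsg.Agent.H21.BR
open scoped ComplexConjugate

example (p e t n f : ℕ) (hp : p.Prime) (het : e * t = p - 1) (hND : ND p n)
    (hf2 : 2 ≤ f) (hdvd : f ∣ e * (1 + n * p)) (hmod : (f : ℤ) ≡ 1 [ZMOD p]) :
    f = 1 + n * p := Cfsg.Agent.H35.BRM.nd_plus p e t n f hp het hND hf2 hdvd hmod

example (p e t n f : ℕ) (hp : p.Prime) (hp2 : p ≠ 2) (het : e * t = p - 1)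
    (hn : 1 ≤ n) (hND : ND p n) (hdvd : f ∣ e * (1 + n * p)) (hmod : (f : ℤ) ≡ -1 [ZMOD p])
    (hsq : f ^ 2 ≤ p * (e * (1 + n * p))) : f = p - 1 :=
  Cfsg.Agent.H35.BRM.nd_minus p e t n f hp hp2 het hn hND hdvd hmod hsq

example (p e t n y : ℕ) (ε : ℤ) (hp : p.Prime) (hp2 : p ≠ 2) (het : e * t = p - 1)
    (hn : 1 ≤ n) (hND : ND p n) (hε : ε = 1 ∨ ε = -1) (hy2 : 2 ≤ y)
    (hdvd : y ∣ e * (1 + n * p)) (hmod : (y : ℤ) ≡ ε * (e : ℤ) [ZMOD p])
    (hsq : t * y ^ 2 ≤ p * (e * (1 + n * p))) :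
    (ε = 1 ∧ y = e) ∨ (ε = -1 ∧ t * y = 1 + n * p) :=
  Cfsg.Agent.H35.BRM.nd_exc p e t n y ε hp hp2 het hn hND hε hy2 hdvd hmod hsq

end Cfsg.Agent.H35.BRMArithCheck
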