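import Mathlib
import Cfsg.Agent.H91.L34NDefs

set_option autoImplicit false

/-!
# Piece CEN of S3154 (helper35, for helper91)

If the full preimages of `e1` and `e2` are abelian, their intersection is the centre of their
join.
-/

namespace Cfsg.Agent.H35.L34N

open Subgroup Cfsg.Agent.H60 Cfsg.Agent.H60.L34 Cfsg.Agent.H91.L34N

universe u v

theorem cen : CenStmt.{u, v} := by
  intro X _ F _ φ hφ h1 h2
  apply le_antisymm
  · -- `≤`
    intro x hx
    have hx1 : φ x ∈ e1 F := hx.1
    have hx2 : φ x ∈ e2 F := hx.2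
    have hxJ : x ∈ (e1 F).comap φ ⊔ (e2 F).comap φ := Subgroup.mem_sup_left hx.1
    refine ⟨⟨x, hxJ⟩, ?_, rfl⟩
    have hle : (e1 F).comap φ ⊔ (e2 F).comap φ ≤ Subgroup.centralizer ({x} : Set X) := by
      apply sup_le
      · intro y hy
        rw [Subgroup.mem_centralizer_iff]
        intro z hz
        rw [Set.mem_singleton_iff] at hz
        subst hz
        exact h1 z y hx1 hy
      · intro y hy
        rw [Subgroup.mem_centralizer_iff]
        intro z hz
        rw [Set.mem_singleton_iff] at hz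
        subst hz
        exact h2 z y hx2 hy
    show (⟨x, hxJ⟩ : ↥((e1 F).comap φ ⊔ (e2 F).comap φ)) ∈
      center ↥((e1 F).comap φ ⊔ (e2 F).comap φ)
    rw [Subgroup.mem_center_iff]
    intro y
    apply Subtype.ext
    have hy := hle y.2
    rw [Subgroup.mem_centralizer_iff] at hy
    exact (hy x rfl).symm
  · -- `≥`
    rintro _ ⟨⟨x, hxJ⟩, hxc, rfl⟩
    have hxc' : ∀ y ∈ (e1 F).comap φ ⊔ (e2 F).comap φ, y * x = x * y := by
      intro y hy
      have h := (Subgroup.mem_center_iff.1 hxc) ⟨y, hy⟩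
      exact congrArg Subtype.val h
    -- the image of the join is the range of `heisPSL`
    have hmap : ((e1 F).comap φ ⊔ (e2 F).comap φ).map φ = (heisPSL (F := F)).range := by
      rw [Subgroup.map_sup, Subgroup.map_comap_eq_self_of_surjective hφ,
        Subgroup.map_comap_eq_self_of_surjective hφ, e1, e2, ← Subgroup.map_sup, sgA_sup_sgB,
        ← MonoidHom.range_eq_map]
    have hxr : φ x ∈ (heisPSL (F := F)).range := by
      rw [← hmap]
      exact Subgroup.mem_map_of_mem φ hxJ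
    obtain ⟨g, hg⟩ := hxr
    -- commute with lifts of `⟨1,0,0⟩` and `⟨0,1,0⟩`
    obtain ⟨y1, hy1⟩ := hφ (heisPSL (⟨1, 0, 0⟩ : Heis F))
    obtain ⟨y2, hy2⟩ := hφ (heisPSL (⟨0, 1, 0⟩ : Heis F))
    have hy1J : y1 ∈ (e1 F).comap φ ⊔ (e2 F).comap φ := by
      apply Subgroup.mem_sup_right
      show φ y1 ∈ e2 F
      rw [hy1]
      exact Subgroup.mem_map_of_mem _ (mk_mem_sgB 1 0)
    have hy2J : y2 ∈ (e1 F).comap φ ⊔ (e2 F).comap φ := by
      apply Subgroup.mem_sup_left
      show φ y2 ∈ e1 F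
      rw [hy2]
      exact Subgroup.mem_map_of_mem _ (mk_mem_sgA 1 0)
    have hc1 : (⟨1, 0, 0⟩ : Heis F) * g = g * ⟨1, 0, 0⟩ := by
      apply heisPSL_injective
      rw [map_mul, map_mul, hg, ← hy1, ← map_mul, ← map_mul, hxc' y1 hy1J]
    have hc2 : (⟨0, 1, 0⟩ : Heis F) * g = g * ⟨0, 1, 0⟩ := by
      apply heisPSL_injective
      rw [map_mul, map_mul, hg, ← hy2, ← map_mul, ← map_mul, hxc' y2 hy2J]
    have hs : g.s = 0 := by
      have h := congrArg Heis.r hc1
      simp only [Heis.mul_r] at h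
      simpa using h
    have hp : g.p = 0 := by
      have h := congrArg Heis.r hc2
      simp only [Heis.mul_r] at h
      simpa using h.symm
    constructor
    · show φ x ∈ e1 F
      rw [← hg]
      exact Subgroup.mem_map_of_mem _ (mem_sgA.2 hp)
    · show φ x ∈ e2 F
      rw [← hg]
      exact Subgroup.mem_map_of_mem _ (mem_sgB.2 hs)

end Cfsg.Agent.H35.L34N

namespace Cfsg.Agent.H35.L34NCheck

example : Cfsg.Agent.H91.L34N.CenStmt.{0, 0} := Cfsg.Agent.H35.L34N.cen
example : Cfsg.Agent.H91.L34N.CenStmt.{2, 1} := Cfsg.Agent.H35.L34N.cen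

end Cfsg.Agent.H35.L34NCheck
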