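import Mathlib
import Cfsg.Agent.H91.L34NDefs
import Cfsg.Agent.H24.L34Idx

set_option autoImplicit false
set_option linter.style.haveILetI false

/-!
# Piece SYL of S3154 (helper35, for helper91)

Every Sylow 2-subgroup of `PSL₃(4)` is conjugate into the image of the unitriangular group.
-/

namespace Cfsg.Agent.H35.L34N

open Subgroup Cfsg.Agent.H60 Cfsg.Agent.H60.L34 Cfsg.Agent.H91.L34N

universe u

theorem syl : SylStmt.{u} := by
  intro F _ _ hF P
  classical
  haveI : Fact (Nat.Prime 2) := ⟨Nat.prime_two⟩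
  have hfin : Finite (Matrix.ProjectiveSpecialLinearGroup (Fin 3) F) :=
    Nat.finite_of_card_ne_zero (by rw [Cfsg.Agent.H24.L34.card_psl34 hF]; norm_num)
  have hr : Nat.card (heisPSL (F := F)).range = 64 := by
    rw [← heis_card hF]
    exact (Nat.card_congr (MonoidHom.ofInjective heisPSL_injective).toEquiv).symm
  have hp : IsPGroup 2 (heisPSL (F := F)).range :=
    IsPGroup.of_card (n := 6) (by rw [hr]; norm_num)
  have hidx : ¬ 2 ∣ (heisPSL (F := F)).range.index := by
    have h := Cfsg.Agent.H24.L34.idx hF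
    exact fun hd => (Nat.not_even_iff_odd.2 h) (even_iff_two_dvd.2 hd)
  obtain ⟨c, hc⟩ := MulAction.exists_smul_eq (Matrix.ProjectiveSpecialLinearGroup (Fin 3) F)
    P (hp.toSylow hidx)
  refine ⟨c, fun x hx => ?_⟩
  have h1 : c * x * c⁻¹ ∈ ((c • P : Sylow 2 (Matrix.ProjectiveSpecialLinearGroup (Fin 3) F)) :
      Subgroup (Matrix.ProjectiveSpecialLinearGroup (Fin 3) F)) := by
    rw [Sylow.coe_subgroup_smul]
    exact Subgroup.smul_mem_pointwise_smul x (MulAut.conj c) _ hx
  rw [hc] at h1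
  exact h1

end Cfsg.Agent.H35.L34N

namespace Cfsg.Agent.H35.L34NCheck

example : Cfsg.Agent.H91.L34N.SylStmt.{0} := Cfsg.Agent.H35.L34N.syl
example : Cfsg.Agent.H91.L34N.SylStmt.{3} := Cfsg.Agent.H35.L34N.syl

end Cfsg.Agent.H35.L34NCheck
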