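import Mathlib
import Cfsg.Agent.H9.PGDefs

/-!
# PG-SEMI (S3662 team project, helper9): the split extension of an elementary abelian 2-group by `L`

helper35.  `H` is the semidirect product `Multiplicative A ⋊ L`, transported to `Fin n`.
-/

set_option autoImplicit false

universe u v w

namespace Cfsg.Agent.H35.PG

open Cfsg.Agent.H9.PG

/-- the action of `L` on `Multiplicative A` by automorphisms -/
def semiPhi (L : Type u) [Group L] (A : Type v) [AddCommGroup A] [DistribMulAction L A] :
    L →* MulAut (Multiplicative A) where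
  toFun y :=
    { toFun := fun b => Multiplicative.ofAdd (y • Multiplicative.toAdd b)
      invFun := fun b => Multiplicative.ofAdd (y⁻¹ • Multiplicative.toAdd b)
      left_inv := fun b => by simp
      right_inv := fun b => by simp
      map_mul' := fun b c => by
        show Multiplicative.ofAdd (y • (Multiplicative.toAdd b + Multiplicative.toAdd c)) =
          Multiplicative.ofAdd (y • Multiplicative.toAdd b + y • Multiplicative.toAdd c)
        rw [smul_add] }
  map_one' := by
    ext b
    show Multiplicative.ofAdd ((1 : L) • Multiplicative.toAdd b) = b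
    rw [one_smul]; rfl
  map_mul' := fun y z => by
    ext b
    show Multiplicative.ofAdd ((y * z) • Multiplicative.toAdd b) =
      Multiplicative.ofAdd (y • (z • Multiplicative.toAdd b))
    rw [mul_smul]

theorem semiPhi_apply (L : Type u) [Group L] (A : Type v) [AddCommGroup A] [DistribMulAction L A]
    (y : L) (b : Multiplicative A) :
    semiPhi L A y b = Multiplicative.ofAdd (y • Multiplicative.toAdd b) := rfl

/-- every finite group has a copy on a type of universe 0 -/
theorem semi_transport (S : Type w) [Group S] [Finite S] :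
    ∃ (H : Type) (_ : Group H) (_ : Finite H), Nonempty (H ≃* S) := by
  classical
  let e : Fin (Nat.card S) ≃ S := (Finite.equivFin S).symm
  exact ⟨Fin (Nat.card S), e.group, inferInstance, ⟨@Equiv.mulEquiv _ _ e _⟩⟩

theorem semi : StSemi.{u, v} := by
  intro L _ _ A _ _ _ hA
  classical
  have : Finite (Multiplicative A ⋊[semiPhi L A] L) :=
    Finite.of_equiv _ (SemidirectProduct.equivProd (φ := semiPhi L A)).symm
  obtain ⟨H, iG, iF, ⟨E⟩⟩ := semi_transport (Multiplicative A ⋊[semiPhi L A] L)
  refine ⟨H, iG, iF, ?_, ?_, ?_⟩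
  · rw [Nat.card_congr E.toEquiv, SemidirectProduct.card]
    rfl
  · rintro n ⟨y, rfl⟩
    refine ⟨E.symm (SemidirectProduct.inr y), ?_⟩
    rw [MulEquiv.orderOf_eq, orderOf_injective _ SemidirectProduct.inr_injective]
  · intro p q hp hq hpq ⟨g, hg⟩
    obtain ⟨s, hs⟩ : ∃ s, s = E g := ⟨_, rfl⟩
    have hso : orderOf s = p * q := by rw [hs, MulEquiv.orderOf_eq, hg]
    obtain ⟨y, hy⟩ : ∃ y, y = s.right := ⟨_, rfl⟩
    obtain ⟨m, hm⟩ : ∃ m, m = orderOf y := ⟨_, rfl⟩
    have hmpos : 0 < m := hm ▸ orderOf_pos y
    have hpow : ∀ k : ℕ, (s ^ k).right = y ^ k := fun k => by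
      rw [hy]; exact map_pow (SemidirectProduct.rightHom (φ := semiPhi L A)) s k
    have hmdvd : m ∣ p * q := by
      rw [hm]
      apply orderOf_dvd_of_pow_eq_one
      rw [← hpow, ← hso, pow_orderOf_eq_one]; rfl
    have hr : (s ^ m).right = 1 := by
      rw [hpow, hm, pow_orderOf_eq_one]
    obtain ⟨b, hb⟩ : ∃ b, b = (s ^ m).left := ⟨_, rfl⟩
    have hbb : b * b = 1 := congrArg Multiplicative.ofAdd (hA (Multiplicative.toAdd b))
    have hsq : (s ^ m) * (s ^ m) = 1 := by
      ext
      · rw [SemidirectProduct.mul_left, hr, map_one, ← hb]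
        exact hbb
      · rw [SemidirectProduct.mul_right, hr]; simp
    have h2m : p * q ∣ 2 * m := by
      rw [← hso]
      apply orderOf_dvd_of_pow_eq_one
      rw [mul_comm, pow_mul, pow_two]; exact hsq
    by_cases hmpq : m = p * q
    · left; exact ⟨y, by rw [← hm, hmpq]⟩
    · right
      have h2 : p * q = 2 * m := by
        obtain ⟨j, hj⟩ := hmdvd
        have hj2 : j ∣ 2 := by
          have h3 : m * j ∣ m * 2 := by rw [← hj, mul_comm m 2]; exact h2m
          exact (Nat.mul_dvd_mul_iff_left hmpos).mp h3
        have hj12 : j = 1 ∨ j = 2 := by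
          have h4 := Nat.le_of_dvd (by norm_num) hj2
          have h5 : j ≠ 0 := by rintro rfl; simp at hj2
          omega
        rcases hj12 with rfl | rfl
        · exact absurd (by omega) hmpq
        · omega
      have hne : b ≠ 1 := by
        intro hb1
        have h3 : s ^ m = 1 := by
          ext
          · rw [← hb]; exact hb1
          · exact hr
        have h4 := orderOf_dvd_of_pow_eq_one h3
        rw [hso] at h4
        exact hmpq (Nat.dvd_antisymm hmdvd h4)
      have hfix : y • (Multiplicative.toAdd b) = Multiplicative.toAdd b := by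
        have hc : s * s ^ m = s ^ m * s := by rw [← pow_succ', ← pow_succ]
        have h3 := congrArg SemidirectProduct.left hc
        rw [SemidirectProduct.mul_left, SemidirectProduct.mul_left, hr, map_one, ← hb, ← hy] at h3
        have h4 : s.left * (semiPhi L A y) b = s.left * b := by
          rw [h3, mul_comm]; rfl
        have h5 : (semiPhi L A y) b = b := mul_left_cancel h4
        exact congrArg Multiplicative.toAdd h5
      refine ⟨y, Multiplicative.toAdd b, ?_, hfix, ?_⟩
      · intro h0
        exact hne (congrArg Multiplicative.ofAdd h0)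
      · have h2' : (2:ℕ) ∣ p * q := ⟨m, h2⟩
        rcases (Nat.Prime.dvd_mul Nat.prime_two).mp h2' with h | h
        · left
          have hp2 : p = 2 := ((Nat.prime_dvd_prime_iff_eq Nat.prime_two hp).mp h).symm
          refine ⟨hp2, ?_⟩
          rw [← hm]; subst hp2; omega
        · right
          have hq2 : q = 2 := ((Nat.prime_dvd_prime_iff_eq Nat.prime_two hq).mp h).symm
          refine ⟨hq2, ?_⟩
          rw [← hm]; subst hq2; omega

end Cfsg.Agent.H35.PG

namespace Cfsg.Agent.H35.PGSemiCheck

example : Cfsg.Agent.H9.PG.StSemi.{u, v} := Cfsg.Agent.H35.PG.semi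

end Cfsg.Agent.H35.PGSemiCheck
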