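import Mathlib
import Cfsg.Agent.H2.PrqDefs

set_option autoImplicit false

/-!
# Piece ARITHA of S0998 (helper35, for helper2)

`p = 2 r + 1` and `p + 1 ∣ 2 ^ b * p * r` is impossible for primes `p`, `r ≥ 5`.
-/

namespace Cfsg.Agent.H35.Prq

open Cfsg.Agent.H2.Prq

theorem four_pow_mod_three (k : ℕ) : 4 ^ k % 3 = 1 := by
  induction k with
  | zero => rfl
  | succ n ih =>
    rw [pow_succ]
    omega

theorem arithA : StmtArithA := by
  intro p r b hp hr hr5 hpr hdvd
  have hp2 := hp.two_le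
  have hp' : p = 2 * r + 1 := by omega
  subst hp'
  have h1 : r + 1 ∣ 2 ^ b * (2 * r + 1) * r := Dvd.dvd.trans ⟨2, by ring⟩ hdvd
  have hc1 : Nat.Coprime (r + 1) r := by simp
  have hc2 : Nat.Coprime (r + 1) (2 * r + 1) := by
    have h : 2 * r + 1 = r + (r + 1) := by ring
    rw [h, Nat.coprime_add_self_right]
    exact hc1
  have h2 : r + 1 ∣ 2 ^ b :=
    hc2.dvd_of_dvd_mul_right (hc1.dvd_of_dvd_mul_right h1)
  obtain ⟨c, -, hrc⟩ := (Nat.dvd_prime_pow Nat.prime_two).1 h2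
  rcases Nat.even_or_odd c with ⟨k, hk⟩ | ⟨k, hk⟩
  · have h4 : 3 ∣ r := by
      have h5 : 2 ^ c % 3 = 1 := by
        rw [hk, ← two_mul, pow_mul]
        exact four_pow_mod_three k
      omega
    have h6 := (Nat.prime_dvd_prime_iff_eq Nat.prime_three hr).1 h4
    omega
  · have h4 : 3 ∣ 2 * r + 1 := by
      have h5 : 2 ^ (c + 1) % 3 = 1 := by
        rw [hk, show 2 * k + 1 + 1 = 2 * (k + 1) by ring, pow_mul]
        exact four_pow_mod_three (k + 1)
      have h7 : 2 ^ (c + 1) = 2 * 2 ^ c := by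
        rw [pow_succ]
        ring
      omega
    have h6 := (Nat.prime_dvd_prime_iff_eq Nat.prime_three hp).1 h4
    omega

end Cfsg.Agent.H35.Prq

namespace Cfsg.Agent.H35.PrqArithACheck

example : Cfsg.Agent.H2.Prq.StmtArithA := Cfsg.Agent.H35.Prq.arithA

end Cfsg.Agent.H35.PrqArithACheck
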