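import Mathlib
import Cfsg.Agent.H44.SpODefs

/-!
# S2347 team project (helper44), piece SPO-DICH
The dichotomy: annihilate the `(i+1, i+1)` entry, or reach the other square class: `dich : StDich`.
-/

set_option autoImplicit false

universe u

namespace Cfsg.Agent.H35.SpO

open Matrix Cfsg.Agent.H44.SpO

theorem dich_key {F : Type u} [Field F] (m : ℕ) (i : Fin m) (p : Fin (m + 1) × Fin (m + 1) → F)
    (x : F) :
    (congR (m + 1) (Matrix.transvection 0 i.succ x) p) (0, 0) = p (0, 0) ∧
      (congR (m + 1) (Matrix.transvection 0 i.succ x) p) (i.succ, i.succ) =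
        p (0, 0) * x ^ 2 + (p (0, i.succ) + p (i.succ, 0)) * x + p (i.succ, i.succ) := by
  have h0 : (0 : Fin (m + 1)) ≠ i.succ := (Fin.succ_ne_zero i).symm
  have h1 : i.succ ≠ (0 : Fin (m + 1)) := Fin.succ_ne_zero i
  constructor
  · show ((Matrix.transvection 0 i.succ x)ᵀ * toMat (m + 1) p * Matrix.transvection 0 i.succ x) 0 0
      = _
    simp [Matrix.transvection, Matrix.add_mul, Matrix.mul_add, Matrix.transpose_add,
      Matrix.transpose_single, toMat, h0, h1]
  · show ((Matrix.transvection 0 i.succ x)ᵀ * toMat (m + 1) p * Matrix.transvection 0 i.succ x)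
      i.succ i.succ = _
    simp [Matrix.transvection, Matrix.add_mul, Matrix.mul_add, Matrix.transpose_add,
      Matrix.transpose_single, toMat]
    ring

theorem dich : StDich.{u} := by
  intro F _ _ m h2 i X hX p hp hp0
  classical
  have h0 : (0 : Fin (m + 1)) ≠ i.succ := (Fin.succ_ne_zero i).symm
  by_cases hQ : ∃ x : F, p (0, 0) * x ^ 2 + (p (0, i.succ) + p (i.succ, 0)) * x
      + p (i.succ, i.succ) = 0
  · obtain ⟨x, hx⟩ := hQ
    left
    refine ⟨congR (m + 1) (Matrix.transvection 0 i.succ x) p, hX _ ?_ p hp, ?_, ?_⟩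
    · rw [Matrix.det_transvection_of_ne _ _ h0]; exact isUnit_one
    · rw [(dich_key m i p x).1]; exact hp0
    · rw [(dich_key m i p x).2]; exact hx
  · right
    set s := p (0, 0) with hs
    set β := p (0, i.succ) + p (i.succ, 0) with hβ
    set γ := p (i.succ, i.succ) with hγ
    have hex : ∃ x : F, ¬ IsSquare ((s * x ^ 2 + β * x + γ) / s) := by
      by_contra hcon
      have hall : ∀ x : F, IsSquare ((s * x ^ 2 + β * x + γ) / s) := by
        intro x; by_contra hx; exact hcon ⟨x, hx⟩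
      set Δ : F := (β / (2 * s)) ^ 2 - γ / s with hΔ
      have hQs : ∀ z : F,
          (s * (z - β / (2 * s)) ^ 2 + β * (z - β / (2 * s)) + γ) / s = z ^ 2 - Δ := by
        intro z; rw [hΔ]; field_simp; ring
      have hsq : ∀ z : F, IsSquare (z ^ 2 - Δ) := fun z => by rw [← hQs z]; exact hall _
      let g : {y : F // IsSquare y} → {y : F // IsSquare y} := fun y =>
        ⟨y.1 - Δ, by obtain ⟨w, hw⟩ := y.2; rw [hw, ← pow_two]; exact hsq w⟩
      have hg : Function.Injective g := by
        intro a b hab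
        have := congrArg Subtype.val hab
        exact Subtype.ext (sub_left_injective this)
      obtain ⟨⟨y, hy⟩, hy0⟩ := Finite.surjective_of_injective hg ⟨0, IsSquare.zero⟩
      have hyΔ : y = Δ := by
        have := congrArg Subtype.val hy0
        exact sub_eq_zero.mp this
      obtain ⟨d, hd⟩ := hy
      apply hQ
      refine ⟨d - β / (2 * s), ?_⟩
      have h3 := hQs d
      have h5 : d ^ 2 - d * d = 0 := by ring
      rw [← hyΔ, hd, h5] at h3
      rcases div_eq_zero_iff.mp h3 with h4 | h4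
      · exact h4
      · exact absurd h4 hp0
    obtain ⟨x, hx⟩ := hex
    let σ : Equiv.Perm (Fin (m + 1)) := Equiv.swap 0 i.succ
    let T : Matrix (Fin (m + 1)) (Fin (m + 1)) F := Matrix.transvection (0 : Fin (m + 1)) i.succ x
    let D : Matrix (Fin (m + 1)) (Fin (m + 1)) F := T.submatrix id σ
    have hD : congR (m + 1) D p (0, 0) = s * x ^ 2 + β * x + γ := by
      have e1 : Dᵀ * toMat (m + 1) p * D = (Tᵀ * toMat (m + 1) p * T).submatrix σ σ := by
        ext a b
        simp [D, Matrix.mul_apply, Matrix.submatrix]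
      show (Dᵀ * toMat (m + 1) p * D) 0 0 = _
      rw [e1]
      have e2 := (dich_key m i p x).2
      have e3 : σ 0 = i.succ := Equiv.swap_apply_left 0 i.succ
      show (Tᵀ * toMat (m + 1) p * T) (σ 0) (σ 0) = _
      rw [e3]
      exact e2
    refine ⟨congR (m + 1) D p, hX D ?_ p hp, ?_, ?_⟩
    · rw [Matrix.det_permute', Matrix.det_transvection_of_ne _ _ h0, mul_one]
      exact (Equiv.Perm.sign σ).isUnit.map (Int.castRingHom F)
    · rw [hD]; intro h0'; exact hQ ⟨x, h0'⟩
    · rw [hD]; exact hx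

end Cfsg.Agent.H35.SpO

namespace Cfsg.Agent.H35.SpODichCheck

open Matrix Cfsg.Agent.H44.SpO

example : ∀ {F : Type u} [Field F] [Fintype F] (m : ℕ), (2 : F) ≠ 0 → ∀ (i : Fin m)
    (X : Set (Fin (m + 1) × Fin (m + 1) → F)), CClosed m X →
    ∀ p ∈ X, p (0, 0) ≠ 0 →
      (∃ p' ∈ X, p' (0, 0) ≠ 0 ∧ p' (i.succ, i.succ) = 0) ∨
      (∃ p' ∈ X, p' (0, 0) ≠ 0 ∧ ¬ IsSquare (p' (0, 0) / p (0, 0))) :=
  Cfsg.Agent.H35.SpO.dich.{u}

example : Cfsg.Agent.H44.SpO.StDich.{u} := Cfsg.Agent.H35.SpO.dich.{u}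

end Cfsg.Agent.H35.SpODichCheck
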