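import Mathlib
import Cfsg.Agent.H44.SpODefs

/-!
# S2347 team project (helper44), piece SPO-ROW
The first row of a character can be moved freely: `row : StRow`.
-/

set_option autoImplicit false

universe u

namespace Cfsg.Agent.H35.SpO

open Matrix Cfsg.Agent.H44.SpO

theorem row : StRow.{u} := by
  intro F _ m X hX p hp hp0 t ht μ
  let b : Fin m → F := fun j => (μ j / t - p (0, j.succ)) / p (0, 0)
  let D : Matrix (Fin (m + 1)) (Fin (m + 1)) F :=
    Matrix.of fun i j => Fin.cases (Fin.cases t b j)
      (fun i' => Fin.cases 0 (fun j' => if i' = j' then 1 else 0) j) i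
  have hDdet : D.det = t := by
    rw [Matrix.det_of_isUpperTriangular]
    · rw [Fin.prod_univ_succ]
      simp [D]
    · intro i j hij
      induction i using Fin.cases with
      | zero => exact absurd hij (Fin.not_lt_zero _)
      | succ i' =>
        induction j using Fin.cases with
        | zero => simp [D]
        | succ j' =>
          have hne : i' ≠ j' := by
            rintro rfl
            exact absurd hij (lt_irrefl _)
          simp [D, hne]
  refine ⟨congR (m + 1) D p, hX D (by rw [hDdet]; exact ht.isUnit) p hp, ?_, ?_⟩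
  · show (Dᵀ * toMat (m + 1) p * D) 0 0 = _
    simp [Matrix.mul_apply, Fin.sum_univ_succ, D, toMat]
    ring
  · intro j
    show (Dᵀ * toMat (m + 1) p * D) 0 j.succ = _
    simp [Matrix.mul_apply, Fin.sum_univ_succ, D, toMat, b]
    field_simp
    ring

end Cfsg.Agent.H35.SpO

namespace Cfsg.Agent.H35.SpORowCheck

open Matrix Cfsg.Agent.H44.SpO

example : ∀ {F : Type u} [Field F] (m : ℕ) (X : Set (Fin (m + 1) × Fin (m + 1) → F)), CClosed m X →
    ∀ p ∈ X, p (0, 0) ≠ 0 → ∀ (t : F), t ≠ 0 → ∀ μ : Fin m → F,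
      ∃ p' ∈ X, p' (0, 0) = t ^ 2 * p (0, 0) ∧ ∀ j : Fin m, p' (0, j.succ) = μ j :=
  Cfsg.Agent.H35.SpO.row.{u}

example : Cfsg.Agent.H44.SpO.StRow.{u} := Cfsg.Agent.H35.SpO.row.{u}

end Cfsg.Agent.H35.SpORowCheck
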