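import Mathlib
import Cfsg.Agent.H97.SuLDefs

/-!
# SuL-ARITH (piece of helper97's team project S2334 + S2335)

The arithmetic of the two Landazuri–Seitz bounds.
-/

set_option autoImplicit false

namespace Cfsg.Agent.H35.SuL

open Module Cfsg.Agent.H17 Cfsg.Agent.H97.SuL

theorem arith : StArith := by
  intro q m hq hm
  obtain ⟨k, rfl⟩ : ∃ k, q = k + 1 := ⟨q - 1, by omega⟩
  have hk1 : k + 1 - 1 = k := by omega
  rw [hk1]
  have key : (k + 1) ^ (m + 2) = (k + 1) ^ m + (k + 1 + 1) * (k * (k + 1) ^ m) := by ring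
  have hge : k + 1 ≤ (k + 1) ^ m := Nat.le_self_pow (by omega) (k + 1)
  have h3 : (k + 1) ^ 3 - (k + 1) = (k + 1 + 1) * (k * (k + 1)) := by
    have e : (k + 1) ^ 3 = (k + 1 + 1) * (k * (k + 1)) + (k + 1) := by ring
    omega
  have h4 : (k + 1) ^ 4 - 1 = (k + 1 + 1) * (k + k * (k + 1) ^ 2) := by
    have e : (k + 1) ^ 4 = (k + 1 + 1) * (k + k * (k + 1) ^ 2) + 1 := by ring
    omega
  refine ⟨?_, ?_, ?_, ?_⟩
  · have e : (k + 1) ^ (m + 2) - (k + 1) =
        ((k + 1) ^ m - (k + 1)) + (k + 1 + 1) * (k * (k + 1) ^ m) := by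
      generalize (k + 1) ^ (m + 2) = A at key ⊢
      generalize (k + 1 + 1) * (k * (k + 1) ^ m) = C at key ⊢
      generalize (k + 1) ^ m = B at key hge ⊢
      omega
    rw [e, Nat.add_mul_div_left _ _ (by omega : 0 < k + 1 + 1)]
  · have e : (k + 1) ^ (m + 2) - 1 =
        ((k + 1) ^ m - 1) + (k + 1 + 1) * (k * (k + 1) ^ m) := by
      generalize (k + 1) ^ (m + 2) = A at key ⊢
      generalize (k + 1 + 1) * (k * (k + 1) ^ m) = C at key ⊢
      generalize (k + 1) ^ m = B at key hge ⊢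
      omega
    rw [e, Nat.add_mul_div_left _ _ (by omega : 0 < k + 1 + 1)]
  · rw [h3, Nat.mul_div_cancel_left _ (by omega : 0 < k + 1 + 1)]
  · rw [h4, Nat.mul_div_cancel_left _ (by omega : 0 < k + 1 + 1)]

end Cfsg.Agent.H35.SuL

namespace Cfsg.Agent.H35.SuLArithCheck

example : Cfsg.Agent.H97.SuL.StArith := Cfsg.Agent.H35.SuL.arith

end Cfsg.Agent.H35.SuLArithCheck
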