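import Mathlib
import Cfsg.Agent.H97.SuLDefs

/-!
# SuL-ENUM (piece of helper97's team project S2334 + S2335)

An enumeration of the `q - 1` nonzero elements of the fixed field of `x ↦ x ^ q` in a field with
`q ^ 2` elements: the powers `g ^ ((q + 1) i)`, `i < q - 1`, of a generator `g` of `Fˣ`.
-/

set_option autoImplicit false

universe u

namespace Cfsg.Agent.H35.SuL

open Module Cfsg.Agent.H17 Cfsg.Agent.H97.SuL

theorem enum : StEnum.{u} := by
  intro F _ _ q hF
  classical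
  have hq0 : q ≠ 0 := by
    rintro rfl
    simp at hF
  obtain ⟨k, rfl⟩ : ∃ k, q = k + 1 := ⟨q - 1, by omega⟩
  have hk1 : k + 1 - 1 = k := by omega
  rw [hk1]
  have hcard : Fintype.card Fˣ = k * (k + 1 + 1) := by
    rw [Fintype.card_units, hF]
    have e : (k + 1) ^ 2 = k * (k + 1 + 1) + 1 := by ring
    omega
  obtain ⟨g, hg⟩ := IsCyclic.exists_generator (α := Fˣ)
  have hord : orderOf g = k * (k + 1 + 1) := by
    rw [orderOf_eq_card_of_forall_mem_zpowers hg, Nat.card_eq_fintype_card, hcard]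
  have hg1 : g ^ (k * (k + 1 + 1)) = 1 := by
    rw [← hord]
    exact pow_orderOf_eq_one g
  refine ⟨fun i => ((g ^ ((k + 1 + 1) * (i : ℕ)) : Fˣ) : F), ?_, ?_⟩
  · intro i j hij
    have h1 : g ^ ((k + 1 + 1) * (i : ℕ)) = g ^ ((k + 1 + 1) * (j : ℕ)) := Units.ext hij
    have hi : (k + 1 + 1) * (i : ℕ) ∈ Set.Iio (orderOf g) := by
      rw [hord, Set.mem_Iio, mul_comm k]
      exact Nat.mul_lt_mul_of_pos_left i.2 (by omega)
    have hj : (k + 1 + 1) * (j : ℕ) ∈ Set.Iio (orderOf g) := by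
      rw [hord, Set.mem_Iio, mul_comm k]
      exact Nat.mul_lt_mul_of_pos_left j.2 (by omega)
    have h2 := pow_injOn_Iio_orderOf hi hj h1
    exact Fin.ext (Nat.eq_of_mul_eq_mul_left (by omega) h2)
  · intro i
    refine ⟨?_, Units.ne_zero _⟩
    rw [← Units.val_pow_eq_pow_val, ← pow_mul]
    congr 1
    have e : (k + 1 + 1) * (i : ℕ) * (k + 1) =
        (k + 1 + 1) * (i : ℕ) + (k * (k + 1 + 1)) * (i : ℕ) := by ring
    rw [e, pow_add, pow_mul g (k * (k + 1 + 1)), hg1, one_pow, mul_one]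

end Cfsg.Agent.H35.SuL

namespace Cfsg.Agent.H35.SuLEnumCheck

example : Cfsg.Agent.H97.SuL.StEnum.{u} := Cfsg.Agent.H35.SuL.enum

end Cfsg.Agent.H35.SuLEnumCheck
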