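import Mathlib
import Cfsg.Agent.H17.TgDefs

/-!
# S1904 team project (helper17): small commutator lemmas for a normal abelian subgroup `B`
(`[b, x] = b * x * b⁻¹ * x⁻¹`; `b ↦ [b, x]` is multiplicative on `B`).
-/

set_option autoImplicit false

universe u

namespace Cfsg.Agent.H35.Tg

variable {X : Type u} [Group X]

theorem comm_of_com_eq_one {a b : X} (h : a * b * a⁻¹ * b⁻¹ = 1) : a * b = b * a := by
  have e : a * b = (a * b * a⁻¹ * b⁻¹) * (b * a) := by group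
  rw [e, h, one_mul]

theorem com_eq_one_of_comm {a b : X} (h : a * b = b * a) : a * b * a⁻¹ * b⁻¹ = 1 := by
  rw [h]; group

theorem com_mem (B : Subgroup X) (hn : B.Normal) {b : X} (hb : b ∈ B) (x : X) :
    b * x * b⁻¹ * x⁻¹ ∈ B := by
  have h1 : x * b⁻¹ * x⁻¹ ∈ B := hn.conj_mem _ (B.inv_mem hb) x
  have e : b * x * b⁻¹ * x⁻¹ = b * (x * b⁻¹ * x⁻¹) := by group
  rw [e]; exact B.mul_mem hb h1

theorem com_mul (B : Subgroup X) (hn : B.Normal) (hab : ∀ a ∈ B, ∀ b ∈ B, a * b = b * a)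
    {b b' : X} (hb : b ∈ B) (hb' : b' ∈ B) (x : X) :
    (b * b') * x * (b * b')⁻¹ * x⁻¹ = (b * x * b⁻¹ * x⁻¹) * (b' * x * b'⁻¹ * x⁻¹) := by
  have hu : x * b⁻¹ * x⁻¹ ∈ B := hn.conj_mem _ (B.inv_mem hb) x
  have hu' : x * b'⁻¹ * x⁻¹ ∈ B := hn.conj_mem _ (B.inv_mem hb') x
  have e1 : (x * b⁻¹ * x⁻¹) * b' = b' * (x * b⁻¹ * x⁻¹) := hab _ hu _ hb'
  have e2 : (x * b⁻¹ * x⁻¹) * (x * b'⁻¹ * x⁻¹) = (x * b'⁻¹ * x⁻¹) * (x * b⁻¹ * x⁻¹) :=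
    hab _ hu _ hu'
  calc (b * b') * x * (b * b')⁻¹ * x⁻¹
      = b * (b' * ((x * b'⁻¹ * x⁻¹) * (x * b⁻¹ * x⁻¹))) := by group
    _ = b * (b' * ((x * b⁻¹ * x⁻¹) * (x * b'⁻¹ * x⁻¹))) := by rw [e2]
    _ = b * (((x * b⁻¹ * x⁻¹) * b') * (x * b'⁻¹ * x⁻¹)) := by rw [e1]; group
    _ = (b * x * b⁻¹ * x⁻¹) * (b' * x * b'⁻¹ * x⁻¹) := by group

theorem com_sq (B : Subgroup X) (hn : B.Normal) (hab : ∀ a ∈ B, ∀ b ∈ B, a * b = b * a)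
    {b : X} (hb : b ∈ B) (x : X) :
    (b * x * b⁻¹ * x⁻¹) ^ 2 = b ^ 2 * x * (b ^ 2)⁻¹ * x⁻¹ := by
  have h := com_mul B hn hab hb hb x
  rw [pow_two (b * x * b⁻¹ * x⁻¹), pow_two b]
  exact h.symm

/-- if `x` inverts `c`, and `c⁻¹ * d` is a central involution, then `x` inverts `d` -/
theorem inv_of_parts (x d c : X) (hxc : x * c * x⁻¹ = c⁻¹) (hv2 : (c⁻¹ * d) ^ 2 = 1)
    (hvc : c⁻¹ * d ∈ Subgroup.center X) : x * d * x⁻¹ = d⁻¹ := by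
  have hvx : x * (c⁻¹ * d) * x⁻¹ = c⁻¹ * d := by
    have h := Subgroup.mem_center_iff.mp hvc x
    rw [h]; group
  have hvinv : (c⁻¹ * d)⁻¹ = c⁻¹ * d := by
    apply inv_eq_of_mul_eq_one_left
    rw [← pow_two]; exact hv2
  calc x * d * x⁻¹ = (x * c * x⁻¹) * (x * (c⁻¹ * d) * x⁻¹) := by group
    _ = c⁻¹ * (c⁻¹ * d) := by rw [hxc, hvx]
    _ = (c⁻¹ * d) * c⁻¹ := Subgroup.mem_center_iff.mp hvc c⁻¹
    _ = (c⁻¹ * d)⁻¹ * c⁻¹ := by rw [hvinv]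
    _ = d⁻¹ := by group

end Cfsg.Agent.H35.Tg
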