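import Mathlib
import Cfsg.Agent.H17.TgDefs
import Cfsg.Agent.H35.TgAux

/-!
# S1904 team project (helper17), piece TG-QEX1
If some element outside `B` centralizes `Ω₂(B)`, some element outside `B` centralizes all squares
of `B`: `qex1 (hSq : StSq) : StQex1`.
-/

set_option autoImplicit false

universe u

namespace Cfsg.Agent.H35.Tg

open Cfsg.Agent.H17.Tg

/-- TG-QEX1 -/
theorem qex1 (hSq : StSq.{u}) : StQex1.{u} := by
  intro X _ _ A hH B hB hnc hex hy
  obtain ⟨hn, -, hab⟩ := hB.1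
  obtain ⟨k, hk⟩ := IsPGroup.iff_card.mp hH.pgrp
  have hpow : ∀ b : X, b ^ 2 ^ k = 1 := fun b => by rw [← hk]; exact pow_card_eq_one'
  have main : ∀ d j : ℕ, j + d = k → 2 ≤ j →
      (∃ y : X, y ∉ B ∧ ∀ b ∈ B, b ^ 2 ^ j = 1 → y * b = b * y) →
      ∃ q : X, q ∉ B ∧ ∀ b ∈ B, q * b ^ 2 = b ^ 2 * q := by
    intro d
    induction d with
    | zero =>
      intro j hj _ ⟨y, hyB, hyc⟩
      have hjk : j = k := by omega
      subst hjk
      exact ⟨y, hyB, fun b hb => hyc (b ^ 2) (B.pow_mem hb 2) (hpow _)⟩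
    | succ d ih =>
      intro j hj h2 ⟨y, hyB, hyc⟩
      by_cases hexp : ∀ b ∈ B, b ^ 2 ^ (j + 1) = 1
      · refine ⟨y, hyB, fun b hb => hyc (b ^ 2) (B.pow_mem hb 2) ?_⟩
        have e : (b ^ 2) ^ 2 ^ j = b ^ 2 ^ (j + 1) := by
          rw [← pow_mul]; congr 1; ring
        rw [e]
        exact hexp b hb
      · obtain ⟨b₀, hb₀, hb₀ne⟩ : ∃ b₀ ∈ B, b₀ ^ 2 ^ (j + 1) ≠ 1 := by
          by_contra hno
          apply hexp
          intro b hb
          by_contra hbne
          exact hno ⟨b, hb, hbne⟩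
        have sq := hSq X A hH B hB.1 hnc (j + 1) b₀ hb₀ hb₀ne
        by_cases hcen : ∀ b ∈ B, b ^ 2 ^ (j + 1) = 1 → y * b = b * y
        · exact ih (j + 1) (by omega) (by omega) ⟨y, hyB, hcen⟩
        · obtain ⟨b', hb', hb'o, hb'y⟩ :
              ∃ b' ∈ B, b' ^ 2 ^ (j + 1) = 1 ∧ y * b' ≠ b' * y := by
            by_contra hno
            apply hcen
            intro b hb hbo
            by_contra hbne
            exact hno ⟨b, hb, hbo, hbne⟩
          have key : ∀ b ∈ B, b ^ 2 ^ (j + 2) = 1 →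
              b * y ^ 2 * b⁻¹ * (y ^ 2)⁻¹ = b ^ 2 * y * (b ^ 2)⁻¹ * y⁻¹ := by
            intro b hb hbo
            have hcB : b * y * b⁻¹ * y⁻¹ ∈ B := com_mem B hn hb y
            have hc2 : (b * y * b⁻¹ * y⁻¹) ^ 2 = b ^ 2 * y * (b ^ 2)⁻¹ * y⁻¹ :=
              com_sq B hn hab hb y
            have hb4 : y * (b ^ 2) ^ 2 = (b ^ 2) ^ 2 * y := by
              apply hyc _ (B.pow_mem (B.pow_mem hb 2) 2)
              have e : ((b ^ 2) ^ 2) ^ 2 ^ j = b ^ 2 ^ (j + 2) := by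
                rw [← pow_mul, ← pow_mul]; congr 1; ring
              rw [e]; exact hbo
            have hc4 : (b * y * b⁻¹ * y⁻¹) ^ 4 = 1 := by
              have e4 : (b * y * b⁻¹ * y⁻¹) ^ 4 = ((b * y * b⁻¹ * y⁻¹) ^ 2) ^ 2 := by
                rw [← pow_mul]
              rw [e4, hc2, com_sq B hn hab (B.pow_mem hb 2) y]
              exact com_eq_one_of_comm hb4.symm
            have hcy : y * (b * y * b⁻¹ * y⁻¹) = (b * y * b⁻¹ * y⁻¹) * y := by
              apply hyc _ hcB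
              obtain ⟨i, rfl⟩ : ∃ i, j = i + 2 := ⟨j - 2, by omega⟩
              have e : 2 ^ (i + 2) = 4 * 2 ^ i := by ring
              rw [e, pow_mul, hc4, one_pow]
            have e1 : y * (b * y * b⁻¹ * y⁻¹) * y⁻¹ = b * y * b⁻¹ * y⁻¹ := by
              rw [hcy]; group
            calc b * y ^ 2 * b⁻¹ * (y ^ 2)⁻¹
                = (b * y * b⁻¹ * y⁻¹) * (y * (b * y * b⁻¹ * y⁻¹) * y⁻¹) := by
                  rw [pow_two]; group
              _ = (b * y * b⁻¹ * y⁻¹) * (b * y * b⁻¹ * y⁻¹) := by rw [e1]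
              _ = (b * y * b⁻¹ * y⁻¹) ^ 2 := (pow_two _).symm
              _ = _ := hc2
          have hy2c : ∀ b ∈ B, b ^ 2 ^ (j + 1) = 1 → y ^ 2 * b = b * y ^ 2 := by
            intro b hb hbo
            have hbo2 : b ^ 2 ^ (j + 2) = 1 := by
              have e : b ^ 2 ^ (j + 2) = (b ^ 2 ^ (j + 1)) ^ 2 := by
                rw [← pow_mul]; congr 1
              rw [e, hbo, one_pow]
            have h1 := key b hb hbo2
            have h2 : y * b ^ 2 = b ^ 2 * y := by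
              apply hyc (b ^ 2) (B.pow_mem hb 2)
              have e : (b ^ 2) ^ 2 ^ j = b ^ 2 ^ (j + 1) := by
                rw [← pow_mul]; congr 1; ring
              rw [e]; exact hbo
            have h3 : b * y ^ 2 * b⁻¹ * (y ^ 2)⁻¹ = 1 := by
              rw [h1]; exact com_eq_one_of_comm h2.symm
            exact (comm_of_com_eq_one h3).symm
          have hy2B : y ^ 2 ∉ B := by
            intro hin
            obtain ⟨b, hb, hbsq⟩ := sq b' hb' hb'o
            have hbo : b ^ 2 ^ (j + 2) = 1 := by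
              have e : b ^ 2 ^ (j + 2) = (b ^ 2) ^ 2 ^ (j + 1) := by
                rw [← pow_mul]; congr 1; ring
              rw [e, hbsq]; exact hb'o
            have h1 := key b hb hbo
            rw [hbsq] at h1
            have h3 : b * y ^ 2 = y ^ 2 * b := hab b hb _ hin
            have h4 : b * y ^ 2 * b⁻¹ * (y ^ 2)⁻¹ = 1 := com_eq_one_of_comm h3
            rw [h4] at h1
            exact hb'y (comm_of_com_eq_one h1.symm).symm
          exact ih (j + 1) (by omega) (by omega) ⟨y ^ 2, hy2B, hy2c⟩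
  obtain ⟨y, hyB, hyc⟩ := hy
  by_cases hk2 : 2 ≤ k
  · exact main (k - 2) 2 (by omega) le_rfl ⟨y, hyB, fun b hb hb4 => hyc b hb hb4⟩
  · exfalso
    obtain ⟨b, hb, hb4⟩ := hex
    apply hb4
    have h := hpow b
    have hk1 : k = 0 ∨ k = 1 := by omega
    rcases hk1 with rfl | rfl
    · have h' : b = 1 := by simpa using h
      rw [h', one_pow]
    · have h' : b ^ 2 = 1 := by simpa using h
      have e : b ^ 4 = (b ^ 2) ^ 2 := by rw [← pow_mul]
      rw [e, h', one_pow]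

end Cfsg.Agent.H35.Tg

namespace Cfsg.Agent.H35.TgQex1Check

open Cfsg Cfsg.Agent.H17.Tg

example (hSq : StSq.{u}) :
    ∀ (X : Type u) [Group X] [Finite X] (A : Subgroup (MulAut X)), Hyp X A →
    ∀ B : Subgroup X, MaxNAI A B → ¬ B ≤ Subgroup.center X → (∃ b ∈ B, b ^ 4 ≠ 1) →
      (∃ y : X, y ∉ B ∧ ∀ b ∈ B, b ^ 4 = 1 → y * b = b * y) →
      ∃ q : X, q ∉ B ∧ ∀ b ∈ B, q * b ^ 2 = b ^ 2 * q :=
  Cfsg.Agent.H35.Tg.qex1 hSq

example (hSq : StSq.{u}) : Cfsg.Agent.H17.Tg.StQex1.{u} := Cfsg.Agent.H35.Tg.qex1 hSq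

end Cfsg.Agent.H35.TgQex1Check
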